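import Mathlib
import Cfsg.Prelude.Def_GeometricClasses
import Cfsg.Agent.Eq.Def_GeometricClasses
import Cfsg.Agent.Aschbacher.Proper
import Cfsg.Agent.Classical.TransvAlg

/-!
Rational vectors and functionals for a subfield, and subfields of prime index.
-/

set_option autoImplicit false

namespace CfsgLib.Subfield54

open Matrix

variable {ι : Type} [Fintype ι] [DecidableEq ι] {F : Type*} [Field F] {F₀ : Subfield F}

/-- A vector with all coordinates in the subfield. -/
def Rat (F₀ : Subfield F) (v : ι → F) : Prop := ∀ i, v i ∈ F₀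

/-- A functional with rational coefficients. -/
def RatD (F₀ : Subfield F) (φ : Module.Dual F (ι → F)) : Prop := ∀ i, φ (Pi.single i 1) ∈ F₀

/-- A multiple of a rational vector. -/
def RatLine (F₀ : Subfield F) (v : ι → F) : Prop := ∃ (s : F) (w : ι → F), Rat F₀ w ∧ v = s • w

theorem rat_single (i : ι) : Rat F₀ (Pi.single i (1 : F)) := fun j => by
  rw [Pi.single_apply]; split
  · exact F₀.one_mem
  · exact F₀.zero_mem

theorem Rat.add {v w : ι → F} (hv : Rat F₀ v) (hw : Rat F₀ w) : Rat F₀ (v + w) :=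
  fun i => F₀.add_mem (hv i) (hw i)

theorem Rat.sub {v w : ι → F} (hv : Rat F₀ v) (hw : Rat F₀ w) : Rat F₀ (v - w) :=
  fun i => F₀.sub_mem (hv i) (hw i)

theorem Rat.smul {v : ι → F} {c : F} (hc : c ∈ F₀) (hv : Rat F₀ v) : Rat F₀ (c • v) :=
  fun i => F₀.mul_mem hc (hv i)

theorem dual_apply_eq_sum (φ : Module.Dual F (ι → F)) (v : ι → F) :
    φ v = ∑ i, v i * φ (Pi.single i 1) := by
  conv_lhs => rw [← Finset.univ_sum_single v, map_sum]
  refine Finset.sum_congr rfl fun i _ => ?_
  rw [show Pi.single i (v i) = v i • Pi.single i (1 : F) by rw [← Pi.single_smul]; simp, map_smul,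
    smul_eq_mul]

theorem RatD.apply_mem {φ : Module.Dual F (ι → F)} (hφ : RatD F₀ φ) {v : ι → F} (hv : Rat F₀ v) :
    φ v ∈ F₀ := by
  rw [dual_apply_eq_sum]
  exact sum_mem fun i _ => F₀.mul_mem (hv i) (hφ i)

theorem RatD.smul {φ : Module.Dual F (ι → F)} {c : F} (hc : c ∈ F₀) (hφ : RatD F₀ φ) :
    RatD F₀ (c • φ) := fun i => F₀.mul_mem hc (hφ i)

theorem RatD.add {φ ψ : Module.Dual F (ι → F)} (hφ : RatD F₀ φ) (hψ : RatD F₀ ψ) :
    RatD F₀ (φ + ψ) := fun i => F₀.add_mem (hφ i) (hψ i)

theorem RatD.sub {φ ψ : Module.Dual F (ι → F)} (hφ : RatD F₀ φ) (hψ : RatD F₀ ψ) :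
    RatD F₀ (φ - ψ) := fun i => F₀.sub_mem (hφ i) (hψ i)

theorem ratD_proj (i : ι) : RatD F₀ (LinearMap.proj i : Module.Dual F (ι → F)) := fun j => by
  rw [LinearMap.proj_apply, Pi.single_apply]; split
  · exact F₀.one_mem
  · exact F₀.zero_mem

/-- The coordinates of a vector over `F₀`, as an element of `F₀^ι`. -/
def toF₀ {v : ι → F} (hv : Rat F₀ v) : ι → F₀ := fun i => ⟨v i, hv i⟩

/-- The functional on `F^ι` with the given coefficients. -/
noncomputable def dualOf (c : ι → F) : Module.Dual F (ι → F) := ∑ i, c i • LinearMap.proj i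

theorem dualOf_apply (c v : ι → F) : dualOf c v = ∑ i, c i * v i := by
  simp [dualOf, LinearMap.sum_apply]

theorem dualOf_single (c : ι → F) (j : ι) : dualOf c (Pi.single j 1) = c j := by
  simp [dualOf_apply, Pi.single_apply]

/-- Rational vectors in the common kernel of fewer than `card ι` rational functionals. -/
theorem exists_rat_kernel {k : ℕ} (hk : k < Fintype.card ι) (φ : Fin k → Module.Dual F (ι → F))
    (hφ : ∀ a, RatD F₀ (φ a)) : ∃ v : ι → F, Rat F₀ v ∧ v ≠ 0 ∧ ∀ a, φ a v = 0 := by
  let L : (ι → F₀) →ₗ[F₀] (Fin k → F₀) :=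
    { toFun := fun v a => ∑ i, v i * ⟨φ a (Pi.single i 1), hφ a i⟩
      map_add' := fun v w => by
        funext a; simp [add_mul, Finset.sum_add_distrib]
      map_smul' := fun c v => by
        funext a; simp [mul_assoc, Finset.mul_sum] }
  have hlt : Module.finrank F₀ (Fin k → F₀) < Module.finrank F₀ (ι → F₀) := by
    rw [Module.finrank_fin_fun, Module.finrank_pi]; exact hk
  obtain ⟨v, hv, hv0⟩ := (Submodule.ne_bot_iff _).mp (L.ker_ne_bot_of_finrank_lt hlt)
  refine ⟨fun i => (v i : F), fun i => (v i).2, fun h => hv0 (funext fun i => Subtype.ext (congrFun h i)),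
    fun a => ?_⟩
  rw [dual_apply_eq_sum]
  have := congrArg (Subtype.val (p := (· ∈ F₀))) (congrFun (LinearMap.mem_ker.mp hv) a)
  simpa [L] using this

/-- Rational functionals killing fewer than `card ι` rational vectors. -/
theorem exists_ratD_kernel {k : ℕ} (hk : k < Fintype.card ι) (w : Fin k → ι → F)
    (hw : ∀ a, Rat F₀ (w a)) : ∃ φ : Module.Dual F (ι → F), RatD F₀ φ ∧ φ ≠ 0 ∧ ∀ a, φ (w a) = 0 := by
  obtain ⟨c, hc, hc0, hcw⟩ := exists_rat_kernel hk (fun a => dualOf (w a))
    (fun a i => by rw [dualOf_single]; exact hw a i)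
  refine ⟨dualOf c, fun i => by rw [dualOf_single]; exact hc i, fun h => hc0 (funext fun i => ?_),
    fun a => ?_⟩
  · have := LinearMap.congr_fun h (Pi.single i 1)
    rwa [dualOf_single] at this
  · rw [dualOf_apply, ← hcw a, dualOf_apply]
    exact Finset.sum_congr rfl fun i _ => mul_comm _ _

theorem dual_ext {φ ψ : Module.Dual F (ι → F)} (h : ∀ v, Rat F₀ v → φ v = ψ v) : φ = ψ := by
  refine LinearMap.ext fun v => ?_
  rw [dual_apply_eq_sum φ, dual_apply_eq_sum ψ]
  exact Finset.sum_congr rfl fun i _ => by rw [h _ (rat_single i)]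

theorem exists_coord_ne {v : ι → F} (h : v ≠ 0) : ∃ i, v i ≠ 0 := Function.ne_iff.mp h

/-- A vector killed by all rational functionals killing `a` is a multiple of `a`. -/
theorem mem_line_of_forall {a v : ι → F} (ha : Rat F₀ a) (ha0 : a ≠ 0)
    (h : ∀ φ, RatD F₀ φ → φ a = 0 → φ v = 0) : ∃ s : F, v = s • a := by
  obtain ⟨k, hk⟩ := exists_coord_ne ha0
  refine ⟨v k / a k, funext fun i => ?_⟩
  have h1 := h (a k • LinearMap.proj i - a i • LinearMap.proj k)
    ((ratD_proj i).smul (ha k) |>.sub ((ratD_proj k).smul (ha i))) (by simp [mul_comm])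
  simp only [LinearMap.sub_apply, LinearMap.smul_apply, LinearMap.proj_apply, smul_eq_mul, sub_eq_zero] at h1
  simp only [Pi.smul_apply, smul_eq_mul]
  field_simp
  linear_combination h1

/-- A functional killing the rational kernel of `φ` is a multiple of `φ`. -/
theorem mem_dual_line_of_forall {φ ψ : Module.Dual F (ι → F)} (hφ : RatD F₀ φ) (hφ0 : φ ≠ 0)
    (h : ∀ v, Rat F₀ v → φ v = 0 → ψ v = 0) : ∃ s : F, ψ = s • φ := by
  obtain ⟨k, hk⟩ : ∃ k, φ (Pi.single k 1) ≠ 0 := by
    by_contra hno
    push Not at hno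
    exact hφ0 (LinearMap.ext fun v => by rw [dual_apply_eq_sum]; simp [hno])
  refine ⟨ψ (Pi.single k 1) / φ (Pi.single k 1), dual_ext (F₀ := F₀) fun v hv => ?_⟩
  have h1 := h (φ (Pi.single k 1) • v - φ v • Pi.single k 1)
    ((hv.smul (hφ k)).sub ((rat_single k).smul (hφ.apply_mem hv))) (by simp [mul_comm])
  simp only [map_sub, map_smul, smul_eq_mul, sub_eq_zero] at h1
  simp only [LinearMap.smul_apply, smul_eq_mul]
  field_simp
  linear_combination h1

theorem mem_subfield_of_entries {g : GL ι F} {s₀ : F}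
    (h : ∀ i j, ∃ c ∈ F₀, (g : Matrix ι ι F) i j = s₀ * c) :
    g ∈ Cfsg.Geo.subfieldSubgroup F₀ 1 := by
  classical
  choose c hc he using h
  let S : Matrix ι ι F₀ := fun i j => ⟨c i j, hc i j⟩
  have hg : (g : Matrix ι ι F) = s₀ • S.map F₀.subtype := by
    ext i j
    rw [he i j]
    rfl
  rcases isEmpty_or_nonempty ι with hι | hι
  · rw [CfsgLib.Aschbacher.mem_subfieldSubgroup_iff]
    exact ⟨1, 1, Units.ext (Matrix.ext fun i => isEmptyElim i)⟩
  have hdet : (g : Matrix ι ι F).det ≠ 0 := (Matrix.isUnit_iff_isUnit_det _).mp g.isUnit |>.ne_zero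
  rw [hg, Matrix.det_smul, mul_ne_zero_iff, ← RingHom.mapMatrix_apply, ← RingHom.map_det] at hdet
  have hs0 : s₀ ≠ 0 := by
    intro h0; simp [h0, Fintype.card_ne_zero] at hdet
  have hSd : S.det ≠ 0 := fun h0 => hdet.2 (by rw [h0, map_zero])
  rw [CfsgLib.Aschbacher.mem_subfieldSubgroup_iff]
  refine ⟨Matrix.GeneralLinearGroup.mkOfDetNeZero S hSd, Units.mk0 s₀ hs0, Units.ext ?_⟩
  simp only [inv_one, one_mul, mul_one, Units.val_mul]
  rw [hg]
  show s₀ • S.map F₀.subtype = S.map F₀.subtype * Matrix.scalar ι s₀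
  ext i j
  simp [Matrix.mul_diagonal, mul_comm]

/-- Mapping rational vectors to rational lines forces membership in the subfield group. -/
theorem mem_subfield_of_ratLine {g : GL ι F}
    (h : ∀ v : ι → F, Rat F₀ v → RatLine F₀ ((g : Matrix ι ι F) *ᵥ v)) :
    g ∈ Cfsg.Geo.subfieldSubgroup F₀ 1 := by
  classical
  rcases isEmpty_or_nonempty ι with hι | hι
  · exact mem_subfield_of_entries (s₀ := 1) fun i => isEmptyElim i
  choose s w hw he using fun i => h _ (rat_single (F := F) i)
  have hcol : ∀ i j, (g : Matrix ι ι F) j i = s i * w i j := fun i j => by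
    have := congrFun (he i) j
    simpa [Matrix.mulVec_single] using this
  have hne : ∀ i, (g : Matrix ι ι F) *ᵥ Pi.single i 1 ≠ 0 := fun i h0 => by
    have := congrArg (((g⁻¹ : GL ι F) : Matrix ι ι F) *ᵥ ·) h0
    rw [CfsgLib.TransvGL.inv_mulVec_mulVec, Matrix.mulVec_zero] at this
    simpa using congrFun this i
  have hs : ∀ i, s i ≠ 0 := fun i h0 => hne i (by rw [he i, h0, zero_smul])
  have hratio : ∀ i k, i ≠ k → s i / s k ∈ F₀ := by
    intro i k hik
    obtain ⟨t, u, hu, hue⟩ := h _ ((rat_single (F := F) i).add (rat_single k))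
    rw [Matrix.mulVec_add, he i, he k] at hue
    -- a coordinate pair separating the two columns
    obtain ⟨a, b, hab⟩ : ∃ a b, w i a * w k b - w i b * w k a ≠ 0 := by
      by_contra hall
      push Not at hall
      obtain ⟨a, ha⟩ := exists_coord_ne (show w i ≠ 0 from fun h0 => hne i (by rw [he i, h0, smul_zero]))
      have e : w k = (w k a / w i a) • w i := funext fun b => by
        have := hall a b
        simp only [Pi.smul_apply, smul_eq_mul]; field_simp; linear_combination this
      have e2 : (g : Matrix ι ι F) *ᵥ (Pi.single k 1 - (s k * (w k a / w i a) / s i) • Pi.single i 1) = 0 := by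
        rw [Matrix.mulVec_sub, Matrix.mulVec_smul, he i, he k, smul_smul, div_mul_cancel₀ _ (hs i)]
        conv_lhs => arg 1; rw [e, smul_smul]
        exact sub_self _
      have := congrArg (((g⁻¹ : GL ι F) : Matrix ι ι F) *ᵥ ·) e2
      rw [CfsgLib.TransvGL.inv_mulVec_mulVec, Matrix.mulVec_zero] at this
      simpa [hik.symm] using congrFun this k
    have ea := congrFun hue a
    have eb := congrFun hue b
    simp only [Pi.add_apply, Pi.smul_apply, smul_eq_mul] at ea eb
    set D := w i a * w k b - w i b * w k a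
    set Di := u a * w k b - u b * w k a with hDi
    set Dk := w i a * u b - w i b * u a with hDk
    have hi : s i * D = t * Di := by linear_combination w k b * ea - w k a * eb
    have hk : s k * D = t * Dk := by linear_combination w i a * eb - w i b * ea
    have ht : t ≠ 0 := fun h0 => hs i (by simpa [h0, hab] using hi)
    have hDk0 : Dk ≠ 0 := fun h0 => hs k (by simpa [h0, hab] using hk)
    have : s i / s k = Di / Dk := by
      rw [div_eq_div_iff (hs k) hDk0]
      exact mul_left_cancel₀ hab (by linear_combination Dk * hi - Di * hk)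
    rw [this]
    exact F₀.div_mem (F₀.sub_mem (F₀.mul_mem (hu a) (hw k b)) (F₀.mul_mem (hu b) (hw k a)))
      (F₀.sub_mem (F₀.mul_mem (hw i a) (hu b)) (F₀.mul_mem (hw i b) (hu a)))
  let i₀ : ι := Classical.arbitrary ι
  refine mem_subfield_of_entries (s₀ := s i₀) fun j i => ⟨s i / s i₀ * w i j, ?_, ?_⟩
  · refine F₀.mul_mem ?_ (hw i j)
    by_cases hi : i = i₀
    · rw [hi, div_self (hs i₀)]; exact F₀.one_mem
    · exact hratio i i₀ hi
  · rw [hcol]; field_simp [hs i₀]

/-- A subgroup of a finite field containing a subfield of prime index and closed under products. -/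
theorem eq_univ_of_mul_closed [Fintype F] {r : ℕ} (hr : r.Prime) (hcard : Fintype.card F = Nat.card F₀ ^ r)
    (S : Set F) (h0 : ∀ x ∈ F₀, x ∈ S) (hadd : ∀ x ∈ S, ∀ y ∈ S, x + y ∈ S)
    (hmul : ∀ x ∈ S, ∀ y ∈ S, x * y ∈ S) {c : F} (hcS : c ∈ S) (hc : c ∉ F₀) : ∀ x, x ∈ S := by
  classical
  have hpow : ∀ x ∈ S, ∀ k : ℕ, x ^ k ∈ S := by
    intro x hx k
    induction k with
    | zero => rw [pow_zero]; exact h0 1 F₀.one_mem
    | succ k ih => rw [pow_succ]; exact hmul _ ih _ hx
  let A : IntermediateField F₀ F :=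
    { carrier := S
      mul_mem' := fun {a b} ha hb => hmul a ha b hb
      one_mem' := h0 1 F₀.one_mem
      add_mem' := fun {a b} ha hb => hadd a ha b hb
      zero_mem' := h0 0 F₀.zero_mem
      algebraMap_mem' := fun a => h0 a a.2
      inv_mem' := fun x hx => by
        by_cases h : x = 0
        · subst h; rw [_root_.inv_zero]; exact h0 0 F₀.zero_mem
        · have hp : x⁻¹ = x ^ (Fintype.card F - 2) := by
            apply inv_eq_of_mul_eq_one_right
            rw [← pow_succ']
            have : 2 ≤ Fintype.card F := Fintype.one_lt_card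
            rw [show Fintype.card F - 2 + 1 = Fintype.card F - 1 by omega]
            exact FiniteField.pow_card_sub_one_eq_one x h
          rw [hp]; exact hpow x hx _ }
  haveI : Finite F₀ := inferInstance
  have hfin : Module.finrank F₀ F = r := by
    have h := Module.natCard_eq_pow_finrank (K := F₀) (V := F)
    rw [Nat.card_eq_fintype_card, hcard] at h
    exact (Nat.pow_right_injective Finite.one_lt_card h).symm
  haveI := IntermediateField.isSimpleOrder_of_finrank_prime F₀ F (hfin ▸ hr)
  rcases IsSimpleOrder.eq_bot_or_eq_top A with h | h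
  · exfalso
    have hcA : c ∈ A := hcS
    rw [h, IntermediateField.mem_bot] at hcA
    obtain ⟨a, rfl⟩ := hcA
    exact hc a.2
  · intro x
    show x ∈ A
    rw [h]; exact IntermediateField.mem_top

end CfsgLib.Subfield54
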